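import Cfsg.Agent.H942.S62.Iface
import Cfsg.Agent.Lib.GenFitting

/-!
# S5919, the row `Ω₈⁺(2)` (task R8, helper95)

`row_o8 : NumSp → EmbO8 → AutO8 → RowO8`.
-/

set_option autoImplicit false

namespace Cfsg.Agent.H95.S62

open Cfsg Cfsg.Lie Module Cfsg.Agent.H540.E8C.End Cfsg.Agent.H942.S62
open Cfsg.Agent.StdO8.Model (Om)

/-- a subgroup `H` with `F*(H) ≅ M`, `Z(M) = 1` -/
theorem exists_hom {G M : Type*} [Group G] [Finite G] [Group M] {H : Subgroup G}
    (e : M ≃* ↥(generalizedFittingSubgroup ↥H)) (hc : Subgroup.center M = ⊥) :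
    ∃ f : M →* G, Function.Injective f ∧ (∀ g, f g ∈ H) ∧ H ≤ Subgroup.normalizer (f.range : Set G) ∧
      (∀ k ∈ H, (∀ g, k * f g = f g * k) → k = 1) ∧
      ∀ x ∈ H, ∃ α : MulAut M, ∀ g, f (α g) = x * f g * x⁻¹ := by
  have hFn : (generalizedFittingSubgroup ↥H).Normal := Lib.GenFitting.genFitting_normal
  let f : M →* G := (H.subtype.comp (generalizedFittingSubgroup ↥H).subtype).comp e.toMonoidHom
  have hf : ∀ g, f g = ((e g : ↥H) : G) := fun g => rfl
  have hi : Function.Injective f := by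
    intro a b h
    rw [hf, hf] at h
    exact e.injective (Subtype.ext (Subtype.ext h))
  have hsymm : ∀ (k : ↥H) (hk : k ∈ generalizedFittingSubgroup ↥H), f (e.symm ⟨k, hk⟩) = (k : G) := by
    intro k hk
    rw [hf, e.apply_symm_apply]
  refine ⟨f, hi, fun g => (e g : ↥H).2, ?_, ?_, ?_⟩
  · intro h hh
    have key : ∀ h ∈ H, ∀ g ∈ f.range, h * g * h⁻¹ ∈ f.range := by
      rintro h hh _ ⟨g, rfl⟩
      exact ⟨e.symm ⟨⟨h, hh⟩ * (e g : ↥H) * ⟨h, hh⟩⁻¹, hFn.conj_mem _ (e g).2 _⟩, by rw [hsymm]; rfl⟩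
    rw [Subgroup.mem_normalizer_iff]
    intro g
    constructor
    · exact key h hh g
    · intro hg
      have h1 := key h⁻¹ (H.inv_mem hh) _ hg
      have h2 : h⁻¹ * (h * g * h⁻¹) * h⁻¹⁻¹ = g := by group
      rwa [h2] at h1
  · intro k hk hkg
    have h1 : (⟨k, hk⟩ : ↥H) ∈ Subgroup.centralizer (generalizedFittingSubgroup ↥H : Set ↥H) := by
      rw [Subgroup.mem_centralizer_iff]
      intro s hs
      have h2 := hkg (e.symm ⟨s, hs⟩)
      rw [hsymm] at h2
      exact Subtype.ext h2.symm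
    have h2 := Lib.GenFitting.centralizer_genFitting_le h1
    have h4 := hsymm _ h2
    have h3 : e.symm ⟨⟨k, hk⟩, h2⟩ ∈ Subgroup.center M := by
      rw [Subgroup.mem_center_iff]
      intro g
      apply hi
      rw [map_mul, map_mul, h4]
      exact (hkg g).symm
    rw [hc, Subgroup.mem_bot] at h3
    rw [h3, map_one] at h4
    exact h4.symm
  · intro x hx
    refine ⟨(e.trans (MulAut.conjNormal (⟨x, hx⟩ : ↥H))).trans e.symm, fun g => ?_⟩
    rw [hf, hf]
    change ((e (e.symm (MulAut.conjNormal (⟨x, hx⟩ : ↥H) (e g))) : ↥H) : G) = _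
    rw [e.apply_symm_apply, MulAut.conjNormal_apply]
    rfl

theorem fixV_mono {A B : Subgroup E} (h : A ≤ B) : fixV B ≤ fixV A := fun _ hv g hg => hv g (h hg)

/-- two subspaces of dimension at least 4 in a space of dimension at most 7 -/
theorem inf_ne_bot {A B C : Submodule (ZMod 3) LL} (hA : A ≤ C) (hB : B ≤ C)
    (h1 : 4 ≤ finrank (ZMod 3) ↥A) (h2 : 4 ≤ finrank (ZMod 3) ↥B) (h3 : finrank (ZMod 3) ↥C ≤ 7) : A ⊓ B ≠ ⊥ := by
  intro h
  have h4 := Submodule.finrank_sup_add_finrank_inf_eq A B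
  rw [h, finrank_bot, add_zero] at h4
  have h5 := Submodule.finrank_mono (sup_le hA hB)
  omega

/-- **Task R8.** -/
theorem row_o8 (hN : NumSp) (hE : EmbO8) (hA : AutO8) : RowO8 := by
  rintro H ⟨e0⟩ hH
  have e3 : Cfsg.Omega (ZMod 2) (Cfsg.quadFormPlus 4 (ZMod 2)) ≃* ↥Om := by
    rw [← Cfsg.Agent.LieClassical.QuadForms.coe_plusForm]
    exact Cfsg.Agent.AutOrth.Main.oe Cfsg.Agent.StdO8.Model.good
  obtain ⟨f, hi, hfH, hn, hcent, hconj⟩ := exists_hom (e0.trans e3).symm Cfsg.Agent.StdO8.Model.center_Om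
  obtain ⟨φ, φ', hφ, hφ', hsup, hP, ha, hC2⟩ := hE
  obtain ⟨n1, n2, ⟨x', hx2, hx1, hxc, hxv⟩, v0, hv0, hv0'⟩ := hN (f.comp φ) (hi.comp hφ)
  obtain ⟨n1', -, -, -⟩ := hN (f.comp φ') (hi.comp hφ')
  -- fixed vectors
  have hfix : fixV f.range ≠ ⊥ := by
    have h1 : fixV (f.comp φ).range ⊓ fixV (f.comp φ').range ≠ ⊥ := by
      refine inf_ne_bot (C := fixV (P1.map (f.comp φ))) (fixV_mono ?_) (fixV_mono ?_) n1 n1' n2
      · exact Subgroup.map_le_range _ _
      · rw [← Subgroup.map_map, MonoidHom.range_comp]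
        refine Subgroup.map_mono ?_
        rintro _ ⟨g, hg, rfl⟩
        exact hP g hg
    intro h2
    apply h1
    rw [Submodule.eq_bot_iff]
    rintro v ⟨hv, hv'⟩
    rw [Submodule.eq_bot_iff] at h2
    apply h2 v
    have h3 : f.range ≤ stab v := by
      rw [MonoidHom.range_eq_map, ← hsup, Subgroup.map_sup, ← MonoidHom.range_comp, ← MonoidHom.range_comp]
      exact sup_le hv hv'
    exact fun g hg => h3 hg
  generalize hy : f (φ y0) = y at *
  have hy5 : (φ y0) ^ 5 = 1 := by rw [← map_pow, y0_pow, map_one]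
  have hy1 : φ y0 ≠ 1 := by
    intro h
    exact y0_ne (hφ (by rw [h, map_one]))
  have hS1 : f.range ≠ ⊥ := by
    intro h
    have h1 : y ∈ f.range := ⟨_, hy⟩
    rw [h, Subgroup.mem_bot, ← hy] at h1
    exact hy1 (hi (by rw [h1, map_one]))
  have hxH : x' ∈ H := mem_of_partner hH hS1 hn hfix (x := y) ⟨_, hy⟩ hxv
  obtain ⟨α, hα⟩ := hconj x' hxH
  have hxi : x'⁻¹ = x' := by
    rw [inv_eq_iff_mul_eq_one, ← pow_two, hx2]
  have hαα : ∀ g, α (α g) = g := by
    intro g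
    apply hi
    rw [hα, hα, hxi]
    have h1 : x' * x' = 1 := by rw [← pow_two, hx2]
    calc x' * (x' * f g * x') * x' = (x' * x') * f g * (x' * x') := by group
      _ = f g := by rw [h1, one_mul, mul_one]
  have hαy : α (φ y0) = φ y0 := by
    apply hi
    rw [hα, hy]
    have h1 : y * x' = x' * y := hxc
    rw [← h1, mul_inv_cancel_right]
  -- an element `c t c⁻¹` does not fix all the vectors fixed by `y`
  have hno : ∀ c : ↥Om, c * φ y0 = φ y0 * c → (∀ v, ac y v = v → ac (f (c * φ t0 * c⁻¹)) v = v) → False := by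
    intro c hc h
    apply hv0'
    have h1 : ac y (ac (f c) v0) = ac (f c) v0 := by
      rw [← ac_mul, ← hy, ← map_mul, ← hc, map_mul, ac_mul, hy, hv0]
    have h2 := h _ h1
    rw [map_mul, map_mul, ac_mul, ac_mul, map_inv, ac_inv_ac] at h2
    have h3 := congrArg (ac (f c)⁻¹) h2
    rw [ac_inv_ac, ac_inv_ac] at h3
    exact h3
  rcases hA (φ y0) (φ t0) hy5 hy1 ha hC2 (by rw [← map_mul, comm0, map_mul]) α hαα hαy with
    h1 | ⟨c, hc, h1⟩ | ⟨c, r, hc, hr, h1⟩
  · apply hx1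
    refine hcent x' hxH fun g => ?_
    have h2 := hα g
    rw [h1] at h2
    have h3 : f g = x' * f g * x'⁻¹ := h2
    calc x' * f g = (x' * f g * x'⁻¹) * x' := by group
      _ = f g * x' := by rw [← h3]
  · -- `x' = c t c⁻¹`
    have h2 : x' = f (c * φ t0 * c⁻¹) := by
      have h3 : (f (c * φ t0 * c⁻¹))⁻¹ * x' = 1 := by
        refine hcent _ (H.mul_mem (H.inv_mem (hfH _)) hxH) fun g => ?_
        have h4 := hα g
        rw [h1, MulAut.conj_apply, map_mul, map_mul, map_inv] at h4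
        calc (f (c * φ t0 * c⁻¹))⁻¹ * x' * f g = (f (c * φ t0 * c⁻¹))⁻¹ * (x' * f g * x'⁻¹) * x' := by group
          _ = (f (c * φ t0 * c⁻¹))⁻¹ * (f (c * φ t0 * c⁻¹) * f g * (f (c * φ t0 * c⁻¹))⁻¹) * x' := by rw [h4]
          _ = f g * ((f (c * φ t0 * c⁻¹))⁻¹ * x') := by group
      exact (inv_mul_eq_one.1 h3).symm
    exact hno c hc fun v hv => by rw [← h2]; exact hxv v hv
  · -- `[x', r] = c t c⁻¹`
    refine hno c hc fun v hv => ?_
    rw [← h1, map_mul, hα, map_inv, ac_mul, ac_mul, ac_mul, hxi]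
    have h2 : ac y (ac (f r)⁻¹ v) = ac (f r)⁻¹ v := by
      have h3 : y * (f r)⁻¹ = (f r)⁻¹ * y := by
        have h4 : f r * y = y * f r := by rw [← hy, ← map_mul, hr, map_mul]
        calc y * (f r)⁻¹ = (f r)⁻¹ * (f r * y) * (f r)⁻¹ := by group
          _ = (f r)⁻¹ * (y * f r) * (f r)⁻¹ := by rw [h4]
          _ = (f r)⁻¹ * y := by group
      rw [← ac_mul, h3, ac_mul, hv]
    rw [hxv _ h2, ac_ac_inv]
    exact hxv v hv

end Cfsg.Agent.H95.S62
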